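import Mathlib
import Cfsg.Agent.Lib.Helper82.Alt2.Defs
import Cfsg.Agent.Lib.Helper62.Alt2.Klein

/-!
# S2928 package [DELTA] (helper25)

`Fam H` is closed under symmetric differences of members meeting in exactly two points.
-/

set_option autoImplicit false

namespace Cfsg.Agent.Lib.Helper25.Alt2

open Cfsg.Agent.Lib.Helper82.Alt2 Cfsg.Agent.Lib.Helper62.Alt2

/-- package [DELTA] -/
theorem pkgDelta : PkgDelta := by
  intro n H s hs t ht h2
  classical
  obtain ⟨a, b, hab, hst⟩ := Finset.card_eq_two.mp h2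
  have hc2 : (s \ t).card = 2 := by
    have h1 := Finset.card_sdiff_add_card_inter s t
    rw [hs.1, h2] at h1
    omega
  obtain ⟨c, d, hcd, hsd⟩ := Finset.card_eq_two.mp hc2
  have ha : a ∈ s ∩ t := by rw [hst]; simp
  have hb : b ∈ s ∩ t := by rw [hst]; simp
  have hc : c ∈ s \ t := by rw [hsd]; simp
  have hd : d ∈ s \ t := by rw [hsd]; simp
  rw [Finset.mem_inter] at ha hb
  rw [Finset.mem_sdiff] at hc hd
  have hac : a ≠ c := by
    rintro rfl
    exact hc.2 ha.2
  have had : a ≠ d := by
    rintro rfl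
    exact hd.2 ha.2
  have hbc : b ≠ c := by
    rintro rfl
    exact hc.2 hb.2
  have hbd : b ≠ d := by
    rintro rfl
    exact hd.2 hb.2
  have hs4 : s = {a, c, b, d} :=
    eq_of_four hs.1 ha.1 hc.1 hb.1 hd.1 hac hab had (Ne.symm hbc) hcd hbd
  have hg : DT s (Equiv.swap a c * Equiv.swap b d) := by
    have h1 : DT ({a, c, b, d} : Finset (Fin n)) (Equiv.swap a c * Equiv.swap b d) :=
      dt_swap hac hab had (Ne.symm hbc) hcd hbd
    rw [← hs4] at h1
    exact h1
  have hgH := hs.2 _ hg
  have himg := Fam_img ht hgH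
  have heq : img (Equiv.swap a c * Equiv.swap b d) t = symmDiff s t := by
    ext y
    rw [mem_img, Finset.mem_symmDiff]
    constructor
    · rintro ⟨z, hz, rfl⟩
      by_cases hzs : z ∈ s
      · have h1 : z ∈ s ∩ t := Finset.mem_inter.mpr ⟨hzs, hz⟩
        rw [hst] at h1
        simp only [Finset.mem_insert, Finset.mem_singleton] at h1
        rcases h1 with h1 | h1
        · left
          rw [h1, dswap_apply_1 hab had]
          exact hc
        · left
          rw [h1, dswap_apply_3 (Ne.symm had) (Ne.symm hcd)]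
          exact hd
      · right
        rw [dt_apply_of_notMem hg hzs]
        exact ⟨hz, hzs⟩
    · rintro (⟨hys, hyt⟩ | ⟨hyt, hys⟩)
      · have h1 : y ∈ s \ t := Finset.mem_sdiff.mpr ⟨hys, hyt⟩
        rw [hsd] at h1
        simp only [Finset.mem_insert, Finset.mem_singleton] at h1
        rcases h1 with h1 | h1
        · exact ⟨a, ha.2, by rw [h1]; exact dswap_apply_1 hab had⟩
        · exact ⟨b, hb.2, by rw [h1]; exact dswap_apply_3 (Ne.symm had) (Ne.symm hcd)⟩
      · exact ⟨y, hyt, dt_apply_of_notMem hg hys⟩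
  rw [← heq]
  exact himg

end Cfsg.Agent.Lib.Helper25.Alt2
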