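import Mathlib
import Cfsg.Agent.Lib.Helper82.Alt2.Defs

/-!
# S2928 package [FANO7] (helper25)

A triangle in a delta-closed family of `4`-sets with even intersections generates a Fano
configuration.
-/

set_option autoImplicit false

namespace Cfsg.Agent.Lib.Helper25.Alt2

open Cfsg.Agent.Lib.Helper82.Alt2

theorem inter_pair {n : ℕ} {F : Set (Finset (Fin n))} (hcard : ∀ s ∈ F, s.card = 4)
    (hE : Even4 F) {a b : Finset (Fin n)} (ha : a ∈ F) (hb : b ∈ F) (hab : a ≠ b) {x : Fin n}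
    (hxa : x ∈ a) (hxb : x ∈ b) : ∃ q, q ≠ x ∧ a ∩ b = {x, q} := by
  classical
  have hx : x ∈ a ∩ b := Finset.mem_inter.mpr ⟨hxa, hxb⟩
  have h1 : 1 ≤ (a ∩ b).card := Finset.card_pos.mpr ⟨x, hx⟩
  have h2 : (a ∩ b).card ≤ 3 := by
    by_contra h
    push Not at h
    have h3 : a ∩ b = a :=
      Finset.eq_of_subset_of_card_le Finset.inter_subset_left (by rw [hcard a ha]; omega)
    have h4 : a ∩ b = b :=
      Finset.eq_of_subset_of_card_le Finset.inter_subset_right (by rw [hcard b hb]; omega)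
    exact hab (h3.symm.trans h4)
  have h5 := hE a ha b hb
  have h6 : (a ∩ b).card = 2 := by omega
  have h7 : ((a ∩ b).erase x).card = 1 := by rw [Finset.card_erase_of_mem hx, h6]
  obtain ⟨q, hq⟩ := Finset.card_eq_one.mp h7
  have hq' : q ∈ (a ∩ b).erase x := by
    rw [hq]
    exact Finset.mem_singleton_self q
  refine ⟨q, (Finset.mem_erase.mp hq').1, ?_⟩
  rw [← Finset.insert_erase hx, hq]

theorem fourth_pt {n : ℕ} {a : Finset (Fin n)} (ha : a.card = 4) {x p q : Fin n} (hx : x ∈ a)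
    (hp : p ∈ a) (hq : q ∈ a) (hxp : x ≠ p) (hxq : x ≠ q) (hpq : p ≠ q) :
    ∃ s, s ≠ x ∧ s ≠ p ∧ s ≠ q ∧ a = {s, x, p, q} := by
  classical
  have hsub : ({x, p, q} : Finset (Fin n)) ⊆ a := by
    intro y hy
    simp only [Finset.mem_insert, Finset.mem_singleton] at hy
    rcases hy with rfl | rfl | rfl <;> assumption
  have hc3 : ({x, p, q} : Finset (Fin n)).card = 3 := by
    rw [Finset.card_insert_of_notMem, Finset.card_insert_of_notMem, Finset.card_singleton]
    · simpa using hpq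
    · simp [hxp, hxq]
  have hc1 : (a \ {x, p, q}).card = 1 := by
    rw [Finset.card_sdiff_of_subset hsub, ha, hc3]
  obtain ⟨s, hs⟩ := Finset.card_eq_one.mp hc1
  have hs' : s ∈ a \ {x, p, q} := by
    rw [hs]
    exact Finset.mem_singleton_self s
  rw [Finset.mem_sdiff] at hs'
  simp only [Finset.mem_insert, Finset.mem_singleton, not_or] at hs'
  refine ⟨s, hs'.2.1, hs'.2.2.1, hs'.2.2.2, ?_⟩
  rw [← Finset.sdiff_union_of_subset hsub, hs]
  exact (Finset.insert_eq s _).symm

theorem not_mem_of_inter {n : ℕ} {a b : Finset (Fin n)} {x q s : Fin n} (hab : a ∩ b = {x, q})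
    (hsx : s ≠ x) (hsq : s ≠ q) (hsa : s ∈ a) : s ∉ b := by
  intro h
  have h1 : s ∈ a ∩ b := Finset.mem_inter.mpr ⟨hsa, h⟩
  rw [hab] at h1
  simp only [Finset.mem_insert, Finset.mem_singleton] at h1
  rcases h1 with h1 | h1
  · exact hsx h1
  · exact hsq h1

theorem delta_step {n : ℕ} {F : Set (Finset (Fin n))} (hD : DeltaClosed F) (ψ : Fin 7 ↪ Fin n)
    (A B : Finset (Fin 7)) (hA : A.map ψ ∈ F) (hB : B.map ψ ∈ F) (h2 : (A ∩ B).card = 2) :
    (symmDiff A B).map ψ ∈ F := by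
  classical
  have h := hD _ hA _ hB (by rw [← Finset.map_inter, Finset.card_map]; exact h2)
  rw [Finset.map_eq_image, Finset.map_eq_image, ← Finset.image_symmDiff _ _ ψ.injective,
    ← Finset.map_eq_image] at h
  exact h

/-- package [FANO7] -/
theorem pkgFano7 : PkgFano7 := by
  intro n F hcard hE hD hT
  classical
  obtain ⟨x, a, b, c, ha, hb, hc, hxa, hxb, hxc, hab, htri⟩ := hT
  obtain ⟨q, hqx, hab2⟩ := inter_pair hcard hE ha hb hab hxa hxb
  have hq : q ∈ a ∩ b := by rw [hab2]; simp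
  have hqa : q ∈ a := (Finset.mem_inter.mp hq).1
  have hqb : q ∈ b := (Finset.mem_inter.mp hq).2
  have hqc : q ∉ c := fun h => hqx (htri q hqa hqb h)
  have hac : a ≠ c := by
    rintro rfl
    exact hqc hqa
  have hbc : b ≠ c := by
    rintro rfl
    exact hqc hqb
  obtain ⟨p, hpx, hac2⟩ := inter_pair hcard hE ha hc hac hxa hxc
  obtain ⟨r, hrx, hbc2⟩ := inter_pair hcard hE hb hc hbc hxb hxc
  have hp : p ∈ a ∩ c := by rw [hac2]; simp
  have hr : r ∈ b ∩ c := by rw [hbc2]; simp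
  have hpa := (Finset.mem_inter.mp hp).1
  have hpc := (Finset.mem_inter.mp hp).2
  have hrb := (Finset.mem_inter.mp hr).1
  have hrc := (Finset.mem_inter.mp hr).2
  have hpb : p ∉ b := fun h => hpx (htri p hpa h hpc)
  have hra : r ∉ a := fun h => hrx (htri r h hrb hrc)
  have hpq : p ≠ q := by
    rintro rfl
    exact hqc hpc
  have hqr : q ≠ r := by
    rintro rfl
    exact hqc hrc
  have hrp : r ≠ p := by
    rintro rfl
    exact hra hpa
  obtain ⟨s1, h1x, h1p, h1q, ha4⟩ :=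
    fourth_pt (hcard a ha) hxa hpa hqa (Ne.symm hpx) (Ne.symm hqx) hpq
  obtain ⟨s2, h2x, h2q, h2r, hb4⟩ :=
    fourth_pt (hcard b hb) hxb hqb hrb (Ne.symm hqx) (Ne.symm hrx) hqr
  obtain ⟨s3, h3x, h3r, h3p, hc4⟩ :=
    fourth_pt (hcard c hc) hxc hrc hpc (Ne.symm hrx) (Ne.symm hpx) hrp
  have h1a : s1 ∈ a := by rw [ha4]; simp
  have h2b : s2 ∈ b := by rw [hb4]; simp
  have h3c : s3 ∈ c := by rw [hc4]; simp
  have h1b : s1 ∉ b := not_mem_of_inter hab2 h1x h1q h1a
  have h1c : s1 ∉ c := not_mem_of_inter hac2 h1x h1p h1a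
  have hba2 : b ∩ a = {x, q} := by rw [Finset.inter_comm]; exact hab2
  have hca2 : c ∩ a = {x, p} := by rw [Finset.inter_comm]; exact hac2
  have hcb2 : c ∩ b = {x, r} := by rw [Finset.inter_comm]; exact hbc2
  have h2a : s2 ∉ a := not_mem_of_inter hba2 h2x h2q h2b
  have h2c : s2 ∉ c := not_mem_of_inter hbc2 h2x h2r h2b
  have h3a : s3 ∉ a := not_mem_of_inter hca2 h3x h3p h3c
  have h3b : s3 ∉ b := not_mem_of_inter hcb2 h3x h3r h3c
  let ψf : Fin 7 → Fin n := ![s1, s2, q, s3, p, r, x]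
  let m : Fin n → Bool × Bool × Bool :=
    fun y => (decide (y ∈ a), decide (y ∈ b), decide (y ∈ c))
  let pat : Fin 7 → Bool × Bool × Bool :=
    ![(true, false, false), (false, true, false), (true, true, false), (false, false, true),
      (true, false, true), (false, true, true), (true, true, true)]
  have hpat : ∀ i, m (ψf i) = pat i := by
    intro i
    fin_cases i <;>
      simp [m, ψf, pat, h1a, h1b, h1c, h2a, h2b, h2c, hqa, hqb, hqc, h3a, h3b, h3c, hpa, hpb,
        hpc, hra, hrb, hrc, hxa, hxb, hxc]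
  have hpatinj : Function.Injective pat := by decide
  have hinj : Function.Injective ψf := by
    intro i j h
    apply hpatinj
    rw [← hpat i, ← hpat j, h]
  let ψ : Fin 7 ↪ Fin n := ⟨ψf, hinj⟩
  have hA : ({0, 2, 4, 6} : Finset (Fin 7)).map ψ = a := by
    rw [ha4]
    simp only [Finset.map_insert, Finset.map_singleton]
    show ({s1, q, p, x} : Finset (Fin n)) = {s1, x, p, q}
    ext y
    simp only [Finset.mem_insert, Finset.mem_singleton]
    constructor <;> (rintro (h | h | h | h) <;> simp [h])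
  have hB : ({1, 2, 5, 6} : Finset (Fin 7)).map ψ = b := by
    rw [hb4]
    simp only [Finset.map_insert, Finset.map_singleton]
    show ({s2, q, r, x} : Finset (Fin n)) = {s2, x, q, r}
    ext y
    simp only [Finset.mem_insert, Finset.mem_singleton]
    constructor <;> (rintro (h | h | h | h) <;> simp [h])
  have hC : ({3, 4, 5, 6} : Finset (Fin 7)).map ψ = c := by
    rw [hc4]
    simp only [Finset.map_insert, Finset.map_singleton]
    show ({s3, p, r, x} : Finset (Fin n)) = {s3, x, r, p}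
    ext y
    simp only [Finset.mem_insert, Finset.mem_singleton]
    constructor <;> (rintro (h | h | h | h) <;> simp [h])
  have hAF : ({0, 2, 4, 6} : Finset (Fin 7)).map ψ ∈ F := by rw [hA]; exact ha
  have hBF : ({1, 2, 5, 6} : Finset (Fin 7)).map ψ ∈ F := by rw [hB]; exact hb
  have hCF : ({3, 4, 5, 6} : Finset (Fin 7)).map ψ ∈ F := by rw [hC]; exact hc
  have h0145 : ({0, 1, 4, 5} : Finset (Fin 7)).map ψ ∈ F := by
    have h := delta_step hD ψ {0, 2, 4, 6} {1, 2, 5, 6} hAF hBF (by decide)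
    rwa [show symmDiff ({0, 2, 4, 6} : Finset (Fin 7)) {1, 2, 5, 6} = {0, 1, 4, 5} by decide] at h
  have h1234 : ({1, 2, 3, 4} : Finset (Fin 7)).map ψ ∈ F := by
    have h := delta_step hD ψ {1, 2, 5, 6} {3, 4, 5, 6} hBF hCF (by decide)
    rwa [show symmDiff ({1, 2, 5, 6} : Finset (Fin 7)) {3, 4, 5, 6} = {1, 2, 3, 4} by decide] at h
  have h0235 : ({0, 2, 3, 5} : Finset (Fin 7)).map ψ ∈ F := by
    have h := delta_step hD ψ {0, 2, 4, 6} {3, 4, 5, 6} hAF hCF (by decide)
    rwa [show symmDiff ({0, 2, 4, 6} : Finset (Fin 7)) {3, 4, 5, 6} = {0, 2, 3, 5} by decide] at h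
  have h0136 : ({0, 1, 3, 6} : Finset (Fin 7)).map ψ ∈ F := by
    have h := delta_step hD ψ {0, 1, 4, 5} {3, 4, 5, 6} h0145 hCF (by decide)
    rwa [show symmDiff ({0, 1, 4, 5} : Finset (Fin 7)) {3, 4, 5, 6} = {0, 1, 3, 6} by decide] at h
  refine ⟨ψ, ?_⟩
  intro A hAmem
  simp only [colines, Finset.mem_insert, Finset.mem_singleton] at hAmem
  rcases hAmem with rfl | rfl | rfl | rfl | rfl | rfl | rfl
  · exact hCF
  · exact hBF
  · exact h1234
  · exact hAF
  · exact h0235
  · exact h0145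
  · exact h0136

end Cfsg.Agent.Lib.Helper25.Alt2
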