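import Mathlib
import Cfsg.Agent.Lib.Helper82.Alt2.Defs

/-!
# S2928 package [FANOALL] (helper25)

In a connected family of `4`-sets with even intersections containing all planes of an `AG(3,2)`,
every member is a plane.
-/

set_option autoImplicit false

namespace Cfsg.Agent.Lib.Helper25.Alt2

open Cfsg.Agent.Lib.Helper82.Alt2

set_option maxRecDepth 100000 in
/-- the finite check: a nonempty set of at most four points of `AG(3,2)` meeting every plane in
`0`, `2` or `4` points is a plane -/
theorem plane_of_even : ∀ R : Finset (Fin 8), R.Nonempty → R.card ≤ 4 →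
    (∀ B ∈ planes, (R ∩ B).card ≠ 1 ∧ (R ∩ B).card ≠ 3) → R ∈ planes := by
  decide +kernel

set_option maxRecDepth 100000 in
theorem planes_card : ∀ B ∈ planes, B.card = 4 := by decide +kernel

/-- package [FANOALL] -/
theorem pkgFanoAll : PkgFanoAll := by
  intro n F hcard hE hConn φ hφ s hs
  have h0 : ({0, 1, 2, 3} : Finset (Fin 8)) ∈ planes := by decide
  have hbase := hConn _ (hφ _ h0) s hs
  have key : ∀ u v, Meets F u v → (∃ A ∈ planes, u = A.map φ) → ∃ A ∈ planes, v = A.map φ := by
    rintro u v ⟨huF, hvF, hne⟩ ⟨A, hA, rfl⟩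
    classical
    obtain ⟨R, hR⟩ : ∃ R : Finset (Fin 8), R = Finset.univ.filter (fun j => φ j ∈ v) := ⟨_, rfl⟩
    have hmemR : ∀ j, j ∈ R ↔ φ j ∈ v := by
      intro j
      rw [hR, Finset.mem_filter]
      simp
    have hRmap : R.map φ ⊆ v := by
      intro x hx
      rw [Finset.mem_map] at hx
      obtain ⟨j, hj, rfl⟩ := hx
      exact (hmemR j).mp hj
    have hRne : R.Nonempty := by
      obtain ⟨x, hx⟩ := hne
      rw [Finset.mem_inter, Finset.mem_map] at hx
      obtain ⟨⟨j, hj, rfl⟩, hxv⟩ := hx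
      exact ⟨j, (hmemR j).mpr hxv⟩
    have hRcard : R.card ≤ 4 := by
      have h1 := Finset.card_le_card hRmap
      rw [Finset.card_map, hcard v hvF] at h1
      exact h1
    have hRB : ∀ B ∈ planes, (R ∩ B).card ≠ 1 ∧ (R ∩ B).card ≠ 3 := by
      intro B hB
      have h1 := hE v hvF (B.map φ) (hφ B hB)
      have h2 : v ∩ B.map φ = (R ∩ B).map φ := by
        ext x
        simp only [Finset.mem_inter, Finset.mem_map]
        constructor
        · rintro ⟨hxv, j, hj, rfl⟩
          exact ⟨j, ⟨(hmemR j).mpr hxv, hj⟩, rfl⟩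
        · rintro ⟨j, ⟨hjv, hj⟩, rfl⟩
          exact ⟨(hmemR j).mp hjv, j, hj, rfl⟩
      rw [h2, Finset.card_map] at h1
      exact h1
    have hRpl := plane_of_even R hRne hRcard hRB
    refine ⟨R, hRpl, ?_⟩
    have hR4 : R.card = 4 := planes_card R hRpl
    exact (Finset.eq_of_subset_of_card_le hRmap
      (by rw [Finset.card_map, hR4, hcard v hvF])).symm
  induction hbase with
  | refl => exact ⟨_, h0, rfl⟩
  | tail _ hbc ih => exact key _ _ hbc (ih (hbc.1))

end Cfsg.Agent.Lib.Helper25.Alt2
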